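import Cfsg.Agent.Lib.Helper5.SylF
import Cfsg.Agent.Lib.Helper17.Involution

/-!
# Fixed points on the set of Sylow subgroups (helper27, for S0984 packages A15 / A36)
-/

set_option autoImplicit false

namespace Cfsg.Agent.Lib.Helper27.A7

variable {G : Type*} [Group G] [Finite G]

/-- An element centralizing a Sylow `p`-subgroup `P` fixes `1 + p k` Sylow `p`-subgroups. -/
theorem ncard_fixed_of_mem_centralizer (p : ℕ) [Fact p.Prime] (P : Sylow p G) (y : G)
    (hy : y ∈ Subgroup.centralizer ((P : Subgroup G) : Set G)) :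
    ∃ k : ℕ, Set.ncard {Q : Sylow p G | y • Q = Q} = 1 + p * k := by
  classical
  have hpp : p.Prime := Fact.out
  set F : Set (Sylow p G) := {Q : Sylow p G | y • Q = Q} with hF
  have hcomm : ∀ x ∈ (P : Subgroup G), x * y = y * x := by
    intro x hx
    exact ((Subgroup.mem_centralizer_iff.mp hy) x hx)
  let S : SubMulAction (P : Subgroup G) (Sylow p G) :=
    { carrier := F
      smul_mem' := by
        intro x Q hQ
        have h1 : y • Q = Q := hQ
        show y • ((x : G) • Q) = (x : G) • Q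
        rw [← mul_smul, ← hcomm x x.2, mul_smul, h1] }
  have hb : Nat.card S ≡ Nat.card (MulAction.fixedPoints (P : Subgroup G) S) [MOD p] :=
    P.2.card_modEq_card_fixedPoints _
  have hPF : P ∈ F :=
    Sylow.smul_eq_iff_mem_normalizer.mpr (Subgroup.centralizer_le_normalizer _ hy)
  have hfix1 : Nat.card (MulAction.fixedPoints (P : Subgroup G) S) = 1 := by
    rw [Nat.card_eq_one_iff_unique]
    constructor
    · constructor
      rintro ⟨⟨Q₁, hQ₁F⟩, hQ₁⟩ ⟨⟨Q₂, hQ₂F⟩, hQ₂⟩
      have key : ∀ (Q : Sylow p G) (hQF : Q ∈ S),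
          (⟨Q, hQF⟩ : S) ∈ MulAction.fixedPoints (P : Subgroup G) S → Q = P := by
        intro Q hQF hfix
        have h1 : Q ∈ MulAction.fixedPoints (P : Subgroup G) (Sylow p G) := by
          intro x
          have h0 := hfix x
          exact congrArg Subtype.val h0
        have hle : (P : Subgroup G) ≤ Q := (P.2.sylow_mem_fixedPoints_iff).mp h1
        exact Sylow.ext (P.3 Q.2 hle)
      have e1 := key Q₁ hQ₁F hQ₁
      have e2 := key Q₂ hQ₂F hQ₂
      subst e1
      subst e2
      rfl
    · refine ⟨⟨⟨P, hPF⟩, ?_⟩⟩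
      intro x
      apply Subtype.ext
      show (x : G) • P = P
      exact Sylow.smul_eq_iff_mem_normalizer.mpr (Subgroup.le_normalizer x.2)
  have hSF : Nat.card S = Nat.card F := rfl
  rw [hfix1, hSF, Nat.card_coe_set_eq] at hb
  have hf1 : 1 ≤ F.ncard := by
    rw [Nat.one_le_iff_ne_zero]
    intro h0
    have h1 : F = ∅ := (Set.ncard_eq_zero (Set.toFinite F)).mp h0
    rw [h1] at hPF
    exact hPF
  obtain ⟨k, hk⟩ : p ∣ F.ncard - 1 := (Nat.modEq_iff_dvd' hf1).mp hb.symm
  exact ⟨k, by omega⟩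

omit [Finite G] in
/-- An element of order `p` normalizing a Sylow `p`-subgroup lies in it. -/
theorem mem_sylow_of_smul_eq (p : ℕ) [Fact p.Prime] (Q : Sylow p G) (y : G)
    (hyo : orderOf y = p) (hy : y • Q = Q) : y ∈ (Q : Subgroup G) := by
  have hYp : IsPGroup p (Subgroup.zpowers y) := by
    apply IsPGroup.of_card (n := 1)
    rw [Nat.card_zpowers, hyo, pow_one]
  have hfix : Q ∈ MulAction.fixedPoints (Subgroup.zpowers y) (Sylow p G) := by
    intro z
    obtain ⟨k, hk⟩ := Subgroup.mem_zpowers_iff.mp z.2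
    have h1 : ∀ n : ℕ, y ^ n • Q = Q := by
      intro n
      induction n with
      | zero => simp
      | succ n ih => rw [pow_succ, mul_smul, hy, ih]
    have h2 : ∀ k : ℤ, y ^ k • Q = Q := by
      intro k
      rcases Int.eq_nat_or_neg k with ⟨n, rfl | rfl⟩
      · simpa using h1 n
      · rw [zpow_neg, zpow_natCast, inv_smul_eq_iff, h1 n]
    have hz : (z : G) • Q = Q := by rw [← hk]; exact h2 k
    exact hz
  have hle : Subgroup.zpowers y ≤ (Q : Subgroup G) := (hYp.sylow_mem_fixedPoints_iff).mp hfix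
  exact hle (Subgroup.mem_zpowers y)

end Cfsg.Agent.Lib.Helper27.A7
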