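import Cfsg.Agent.Lib.Helper6.A7.Defs
import Cfsg.Agent.Lib.Helper27.A7.SylFix

/-!
# S0984 package A15 (helper27): a simple group of order 2520 does not have 15 Sylow 7-subgroups.
-/

set_option autoImplicit false

namespace Cfsg.Agent.Lib.Helper27.A7

open Cfsg.Agent.Lib.Helper5.Syl Cfsg.Agent.Lib.Helper17

universe u

theorem tripleList_7_360 :
    tripleList 7 360 7 [2, 3, 5] = [(15, 3, 8), (15, 6, 4), (36, 2, 5), (120, 3, 1)] := by
  decide +kernel

/-- The Sylow 7 data of a simple group of order 2520. -/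
theorem syl7_data (G : Type u) [Group G] [Finite G] [IsSimpleGroup G] (h : Nat.card G = 2520) :
    ∃ P : Sylow 7 G, Nat.card (P : Subgroup G) = 7 ∧ ∃ t : ℕ × ℕ × ℕ,
      (t = (15, 3, 8) ∨ t = (15, 6, 4) ∨ t = (36, 2, 5) ∨ t = (120, 3, 1)) ∧
      Nat.card (Sylow 7 G) = t.1 ∧
      Nat.card (Subgroup.normalizer ((P : Subgroup G) : Set G)) = 7 * (t.2.1 * t.2.2) ∧
      Nat.card (Subgroup.centralizer ((P : Subgroup G) : Set G)) = 7 * t.2.2 := by
  have hnp : ¬ (Nat.card G).Prime := by rw [h]; norm_num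
  have : Fact (Nat.Prime 7) := ⟨by norm_num⟩
  obtain ⟨P, hP, t, ht, hv, hN, hC⟩ := triple_mem (G := G) hnp 7 360 (by rw [h])
    (by norm_num) 7 (by norm_num) (by norm_num) ⟨2, by norm_num, by norm_num, by norm_num⟩
    [2, 3, 5] (by
      intro q hq
      simp only [List.mem_cons, List.not_mem_nil, or_false] at hq
      rcases hq with rfl | rfl | rfl <;> norm_num)
  rw [tripleList_7_360] at ht
  simp only [List.mem_cons, List.not_mem_nil, or_false] at ht
  exact ⟨P, hP, t, ht, hv, hN, hC⟩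

/-- Package A15 of S0984. -/
theorem lemS7No15 : Cfsg.Agent.Lib.Helper6.A7.LemS7No15.{u} := by
  intro G _ _ _ h h15
  have hnp : ¬ (Nat.card G).Prime := by rw [h]; norm_num
  have : Fact (Nat.Prime 7) := ⟨by norm_num⟩
  have : Fact (Nat.Prime 2) := ⟨Nat.prime_two⟩
  obtain ⟨P, hP, t, ht, hv, hN, hC⟩ := syl7_data G h
  have h2C : 2 ∣ Nat.card (Subgroup.centralizer ((P : Subgroup G) : Set G)) := by
    rw [hC]
    rcases ht with rfl | rfl | rfl | rfl
    · norm_num
    · norm_num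
    · rw [h15] at hv; simp at hv
    · rw [h15] at hv; simp at hv
  obtain ⟨c, hc⟩ := exists_prime_orderOf_dvd_card'
    (G := ↥(Subgroup.centralizer ((P : Subgroup G) : Set G))) 2 h2C
  have hco : orderOf (c : G) = 2 := by rw [Subgroup.orderOf_coe, hc]
  have hcc : (c : G) * (c : G) = 1 := by
    rw [← pow_two, ← hco]; exact pow_orderOf_eq_one _
  obtain ⟨k, hk⟩ := involution_fixed_mod_four hnp (X := Sylow 7 G) (c : G) hcc
  obtain ⟨k', hk'⟩ := ncard_fixed_of_mem_centralizer 7 P (c : G) c.2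
  rw [h15] at hk
  have hall : Set.ncard {Q : Sylow 7 G | (c : G) • Q = Q} = Nat.card (Sylow 7 G) := by
    rw [h15]; omega
  have huniv : {Q : Sylow 7 G | (c : G) • Q = Q} = Set.univ :=
    (Set.eq_univ_iff_ncard _).mpr hall
  have hc1 : (c : G) = 1 := by
    apply eq_one_of_forall_smul_sylow hnp 7 P hP
    intro Q
    have hQ : Q ∈ {Q : Sylow 7 G | (c : G) • Q = Q} := by rw [huniv]; exact Set.mem_univ Q
    exact hQ
  rw [hc1, orderOf_one] at hco
  omega

end Cfsg.Agent.Lib.Helper27.A7
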