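import Cfsg.Agent.Lib.Helper6.A7.Defs
import Cfsg.Agent.Lib.Helper27.A7.LemS7No15

/-!
# S0984 package A36 (helper27): a simple group of order 2520 does not have 36 Sylow 7-subgroups.
-/

set_option autoImplicit false

namespace Cfsg.Agent.Lib.Helper27.A7

open Cfsg.Agent.Lib.Helper5.Syl Cfsg.Agent.Lib.Helper17

universe u

section gen

variable {G : Type*} [Group G]

theorem pow_smul_eq_of_smul_eq {X : Type*} [MulAction G X] (y : G) (x : X) (h : y • x = x)
    (n : ℕ) : y ^ n • x = x := by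
  induction n with
  | zero => simp
  | succ n ih => rw [pow_succ, mul_smul, h, ih]

theorem zpow_smul_eq_of_smul_eq {X : Type*} [MulAction G X] (y : G) (x : X) (h : y • x = x)
    (k : ℤ) : y ^ k • x = x := by
  rcases Int.eq_nat_or_neg k with ⟨n, rfl | rfl⟩
  · simpa using pow_smul_eq_of_smul_eq y x h n
  · rw [zpow_neg, zpow_natCast, inv_smul_eq_iff, pow_smul_eq_of_smul_eq y x h n]

/-- The number of fixed points of an element of prime order `q` is congruent to the number of
points modulo `q`. -/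
theorem card_modEq_ncard_fixed (q : ℕ) [Fact q.Prime] (y : G) (hyq : orderOf y = q)
    (X : Type*) [MulAction G X] [Finite X] :
    Nat.card X ≡ Set.ncard {x : X | y • x = x} [MOD q] := by
  have hYq : IsPGroup q (Subgroup.zpowers y) := by
    apply IsPGroup.of_card (n := 1)
    rw [Nat.card_zpowers, hyq, pow_one]
  have hc := hYq.card_modEq_card_fixedPoints X
  have hset : MulAction.fixedPoints (Subgroup.zpowers y) X = {x : X | y • x = x} := by
    ext x
    constructor
    · intro h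
      exact h ⟨y, Subgroup.mem_zpowers y⟩
    · intro h z
      obtain ⟨k, hk⟩ := Subgroup.mem_zpowers_iff.mp z.2
      have hz : (z : G) • x = x := by rw [← hk]; exact zpow_smul_eq_of_smul_eq y x h k
      exact hz
  rw [Nat.card_coe_set_eq, hset] at hc
  exact hc

end gen

theorem eq_seven_of_dvd (n : ℕ) (h : n ∣ 35) (h1 : n ≠ 1) (h5 : ¬ 5 ∣ n) : n = 7 := by
  have hle := Nat.le_of_dvd (by norm_num) h
  interval_cases n <;> omega

/-- Package A36 of S0984. -/
theorem lemS7No36 : Cfsg.Agent.Lib.Helper6.A7.LemS7No36.{u} := by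
  intro G _ _ _ h h36
  have hnp : ¬ (Nat.card G).Prime := by rw [h]; norm_num
  have : Fact (Nat.Prime 7) := ⟨by norm_num⟩
  have : Fact (Nat.Prime 5) := ⟨by norm_num⟩
  have : Fact (Nat.Prime 2) := ⟨Nat.prime_two⟩
  obtain ⟨P, hP, t, ht, hv, hN, hC⟩ := syl7_data G h
  have ht' : t = (36, 2, 5) := by
    rcases ht with rfl | rfl | rfl | rfl
    · rw [h36] at hv; simp at hv
    · rw [h36] at hv; simp at hv
    · rfl
    · rw [h36] at hv; simp at hv
  subst ht'
  have hN70 : Nat.card (Subgroup.normalizer ((P : Subgroup G) : Set G)) = 70 := by simpa using hN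
  have hC35 : Nat.card (Subgroup.centralizer ((P : Subgroup G) : Set G)) = 35 := by simpa using hC
  clear hN hC hv
  have hCN : Subgroup.centralizer ((P : Subgroup G) : Set G) ≤
      Subgroup.normalizer ((P : Subgroup G) : Set G) := Subgroup.centralizer_le_normalizer _
  generalize hCdef : Subgroup.centralizer ((P : Subgroup G) : Set G) = C at hC35 hCN
  generalize hNdef : Subgroup.normalizer ((P : Subgroup G) : Set G) = N at hN70 hCN
  have hPfix : ∀ x ∈ N, x • P = P := fun x hx =>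
    Sylow.smul_eq_iff_mem_normalizer.mpr
      (show x ∈ Subgroup.normalizer ((P : Subgroup G) : Set G) by rw [hNdef]; exact hx)
  -- Step 1: elements of order 5 of `C` fix only `P`
  have fix5 : ∀ z ∈ C, orderOf z = 5 → ∀ Q : Sylow 7 G, z • Q = Q → Q = P := by
    intro z hz hz5 Q hQ
    obtain ⟨k, hk⟩ := ncard_fixed_of_mem_centralizer 7 P z (by rw [hCdef]; exact hz)
    have hmod := card_modEq_ncard_fixed 5 z hz5 (Sylow 7 G)
    rw [h36, hk] at hmod
    have hle : Set.ncard {Q : Sylow 7 G | z • Q = Q} ≤ Nat.card (Sylow 7 G) :=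
      Set.ncard_le_card _
    rw [h36, hk] at hle
    have hk0 : k = 0 ∨ k = 5 := by
      unfold Nat.ModEq at hmod
      omega
    rcases hk0 with rfl | rfl
    · have h1 : Set.ncard {Q : Sylow 7 G | z • Q = Q} = 1 := by rw [hk]
      obtain ⟨a, ha⟩ := Set.ncard_eq_one.mp h1
      have hPa : P ∈ {Q : Sylow 7 G | z • Q = Q} := hPfix z (hCN hz)
      have hQa : Q ∈ {Q : Sylow 7 G | z • Q = Q} := hQ
      rw [ha, Set.mem_singleton_iff] at hPa hQa
      rw [hQa, hPa]
    · exfalso
      have hall : Set.ncard {Q : Sylow 7 G | z • Q = Q} = Nat.card (Sylow 7 G) := by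
        rw [hk, h36]
      have huniv := (Set.eq_univ_iff_ncard _).mpr hall
      have hz1 : z = 1 := by
        apply eq_one_of_forall_smul_sylow hnp 7 P hP
        intro Q'
        have hQ' : Q' ∈ {Q : Sylow 7 G | z • Q = Q} := by rw [huniv]; exact Set.mem_univ _
        exact hQ'
      rw [hz1, orderOf_one] at hz5
      omega
  -- Step 2: elements of order 7 of `C` fix only `P`
  have fix7 : ∀ y ∈ C, orderOf y = 7 → ∀ Q : Sylow 7 G, y • Q = Q → Q = P := by
    intro y hy hy7 Q hQ
    have hyP : y ∈ (P : Subgroup G) := mem_sylow_of_smul_eq 7 P y hy7 (hPfix y (hCN hy))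
    have hyQ : y ∈ (Q : Subgroup G) := mem_sylow_of_smul_eq 7 Q y hy7 hQ
    have hzP : Subgroup.zpowers y = (P : Subgroup G) := by
      apply Subgroup.eq_of_le_of_card_ge ((Subgroup.zpowers_le).mpr hyP)
      rw [Nat.card_zpowers, hy7, hP]
    have hle : (P : Subgroup G) ≤ Q := by rw [← hzP]; exact (Subgroup.zpowers_le).mpr hyQ
    exact Sylow.ext (P.3 Q.2 hle)
  -- Step 3: `C` is semiregular on the other Sylow subgroups
  have semireg : ∀ x ∈ C, ∀ Q : Sylow 7 G, Q ≠ P → x • Q = Q → x = 1 := by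
    intro x hx Q hQP hxQ
    by_contra hx1
    have hord : orderOf x ∣ 35 := by
      have h0 := orderOf_dvd_natCard (⟨x, hx⟩ : C)
      rw [hC35, Subgroup.orderOf_mk] at h0
      exact h0
    have hord1 : orderOf x ≠ 1 := fun h0 => hx1 (orderOf_eq_one_iff.mp h0)
    by_cases h5 : 5 ∣ orderOf x
    · have hy5 : orderOf (x ^ (orderOf x / 5)) = 5 :=
        orderOf_pow_orderOf_div (by intro h0; rw [h0] at hord; simp at hord) h5
      exact hQP (fix5 _ (C.pow_mem hx _) hy5 Q (pow_smul_eq_of_smul_eq x Q hxQ _))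
    · exact hQP (fix7 x hx (eq_seven_of_dvd _ hord hord1 h5) Q hxQ)
  -- Step 4
  have hCP : ∀ x ∈ C, ∀ Q : Sylow 7 G, x • Q = P → Q = P := by
    intro x hx Q hQ
    have h1 : x⁻¹ • P = P := hPfix _ (hCN (C.inv_mem hx))
    have h2 : x⁻¹ • (x • Q) = P := by rw [hQ]; exact h1
    rw [inv_smul_smul] at h2
    exact h2
  -- Step 5: `C` is transitive on the other Sylow subgroups
  have trans35 : ∀ Q₀ : Sylow 7 G, Q₀ ≠ P → ∀ Q : Sylow 7 G, Q ≠ P → ∃ x ∈ C, x • Q₀ = Q := by
    intro Q₀ hQ₀ Q hQ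
    let f : C → {Q : Sylow 7 G // Q ≠ P} := fun x =>
      ⟨(x : G) • Q₀, fun h0 => hQ₀ (hCP x x.2 Q₀ h0)⟩
    have hf : Function.Injective f := by
      intro a b hab
      have h1 : (a : G) • Q₀ = (b : G) • Q₀ := congrArg Subtype.val hab
      have h2 : ((b : G)⁻¹ * (a : G)) • Q₀ = Q₀ := by rw [mul_smul, h1, inv_smul_smul]
      have h3 := semireg _ (C.mul_mem (C.inv_mem b.2) a.2) Q₀ hQ₀ h2
      apply Subtype.ext
      calc (a : G) = (b : G) * ((b : G)⁻¹ * (a : G)) := by group
        _ = (b : G) := by rw [h3, mul_one]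
    have hcard : Nat.card {Q : Sylow 7 G // Q ≠ P} ≤ Nat.card C := by
      rw [hC35]
      have h1 : Nat.card {Q : Sylow 7 G // Q ≠ P} = Set.ncard ({Q : Sylow 7 G | Q ≠ P}) :=
        Nat.card_coe_set_eq _
      have h2 : {Q : Sylow 7 G | Q ≠ P} = Set.univ \ {P} := by ext Q; simp
      rw [h1, h2, Set.ncard_sdiff_singleton_of_mem (Set.mem_univ P), Set.ncard_univ, h36]
    obtain ⟨x, hx⟩ := (hf.bijective_of_nat_card_le hcard).2 ⟨Q, hQ⟩
    exact ⟨x, x.2, congrArg Subtype.val hx⟩
  -- Step 6: an involution of `N`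
  have h2N : 2 ∣ Nat.card N := by rw [hN70]; norm_num
  obtain ⟨s', hs'⟩ := exists_prime_orderOf_dvd_card' (G := ↥N) 2 h2N
  obtain ⟨s, hsN, hso⟩ : ∃ s ∈ N, orderOf s = 2 :=
    ⟨s', s'.2, by rw [Subgroup.orderOf_coe, hs']⟩
  have hss : s * s = 1 := by rw [← pow_two, ← hso]; exact pow_orderOf_eq_one _
  have hsC : s ∉ C := by
    intro hsC
    have h0 := orderOf_dvd_natCard (⟨s, hsC⟩ : C)
    rw [hC35, Subgroup.orderOf_mk, hso] at h0
    omega
  have hs_inv : s⁻¹ = s := inv_eq_of_mul_eq_one_left hss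
  have hnormC : ∀ x ∈ C, s * x * s⁻¹ ∈ C := by
    intro x hx
    rw [← hCdef, Subgroup.mem_centralizer_iff]
    intro p hp
    have hp' : s⁻¹ * p * s ∈ (P : Subgroup G) := by
      have hsN' : s⁻¹ ∈ Subgroup.normalizer ((P : Subgroup G) : Set G) := by
        rw [hNdef]; exact N.inv_mem hsN
      have h0 := (Subgroup.mem_normalizer_iff.mp hsN') p
      simpa using h0.mp hp
    have hx' := (Subgroup.mem_centralizer_iff.mp (by rw [hCdef]; exact hx)) _ hp'
    calc p * (s * x * s⁻¹) = s * ((s⁻¹ * p * s) * x) * s⁻¹ := by group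
      _ = s * (x * (s⁻¹ * p * s)) * s⁻¹ := by rw [hx']
      _ = s * x * s⁻¹ * p := by group
  obtain ⟨k, hk⟩ := involution_fixed_mod_four hnp (X := Sylow 7 G) s hss
  rw [h36] at hk
  have hPs : P ∈ {Q : Sylow 7 G | s • Q = Q} := hPfix s hsN
  by_cases hex : ∃ Q₀ : Sylow 7 G, s • Q₀ = Q₀ ∧ Q₀ ≠ P
  · obtain ⟨Q₀, hsQ₀, hQ₀⟩ := hex
    have hDcomm : ∀ x ∈ C ⊓ Subgroup.centralizer {s}, s * x = x * s := fun x hx =>
      (Subgroup.mem_centralizer_singleton_iff.mp hx.2).symm
    have himg : {Q : Sylow 7 G | s • Q = Q} \ {P} =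
        Set.range (fun x : ↥(C ⊓ Subgroup.centralizer {s}) => (x : G) • Q₀) := by
      ext Q
      constructor
      · rintro ⟨hQs, hQP⟩
        have hQP' : Q ≠ P := hQP
        obtain ⟨x, hx, rfl⟩ := trans35 Q₀ hQ₀ Q hQP'
        have hQs' : s • x • Q₀ = x • Q₀ := hQs
        have h1 : (x⁻¹ * (s * x * s⁻¹)) • Q₀ = Q₀ := by
          have h0 : s⁻¹ • Q₀ = Q₀ := by rw [hs_inv]; exact hsQ₀
          rw [mul_smul, mul_smul, mul_smul, h0, hQs', inv_smul_smul]
        have h2 := semireg _ (C.mul_mem (C.inv_mem hx) (hnormC x hx)) Q₀ hQ₀ h1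
        have h3 : s * x = x * s := by
          have h4 : s * x * s⁻¹ = x := by
            calc s * x * s⁻¹ = x * (x⁻¹ * (s * x * s⁻¹)) := by group
              _ = x := by rw [h2, mul_one]
          calc s * x = (s * x * s⁻¹) * s := by group
            _ = x * s := by rw [h4]
        exact ⟨⟨x, hx, Subgroup.mem_centralizer_singleton_iff.mpr h3.symm⟩, rfl⟩
      · rintro ⟨x, rfl⟩
        refine ⟨?_, ?_⟩
        · show s • (x : G) • Q₀ = (x : G) • Q₀
          rw [← mul_smul, hDcomm x x.2, mul_smul, hsQ₀]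
        · intro h0
          exact hQ₀ (hCP x x.2.1 Q₀ h0)
    have hinj : Function.Injective
        (fun x : ↥(C ⊓ Subgroup.centralizer {s}) => (x : G) • Q₀) := by
      intro a b hab
      have h1 : (a : G) • Q₀ = (b : G) • Q₀ := hab
      have h2 : ((b : G)⁻¹ * (a : G)) • Q₀ = Q₀ := by rw [mul_smul, h1, inv_smul_smul]
      have h3 := semireg _ (C.mul_mem (C.inv_mem b.2.1) a.2.1) Q₀ hQ₀ h2
      apply Subtype.ext
      calc (a : G) = (b : G) * ((b : G)⁻¹ * (a : G)) := by group
        _ = (b : G) := by rw [h3, mul_one]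
    have hcount : Set.ncard ({Q : Sylow 7 G | s • Q = Q} \ {P}) =
        Nat.card ↥(C ⊓ Subgroup.centralizer {s}) := by
      rw [himg, ← Set.image_univ, Set.ncard_image_of_injective _ hinj, Set.ncard_univ]
    have hFs : Set.ncard {Q : Sylow 7 G | s • Q = Q} =
        Nat.card ↥(C ⊓ Subgroup.centralizer {s}) + 1 := by
      rw [← hcount, Set.ncard_sdiff_singleton_add_one hPs]
    have hDdvd : Nat.card ↥(C ⊓ Subgroup.centralizer {s}) ∣ 35 := by
      rw [← hC35]; exact Subgroup.card_dvd_of_le inf_le_left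
    have hD7 : ¬ 7 ∣ Nat.card ↥(C ⊓ Subgroup.centralizer {s}) := by
      intro h7
      obtain ⟨y', hy'⟩ := exists_prime_orderOf_dvd_card'
        (G := ↥(C ⊓ Subgroup.centralizer {s})) 7 h7
      have hyo : orderOf (y' : G) = 7 := by rw [Subgroup.orderOf_coe, hy']
      have hyC : (y' : G) ∈ C := y'.2.1
      have hyP : (y' : G) ∈ (P : Subgroup G) :=
        mem_sylow_of_smul_eq 7 P _ hyo (hPfix _ (hCN hyC))
      have hzP : Subgroup.zpowers (y' : G) = (P : Subgroup G) := by
        apply Subgroup.eq_of_le_of_card_ge ((Subgroup.zpowers_le).mpr hyP)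
        rw [Nat.card_zpowers, hyo, hP]
      apply hsC
      rw [← hCdef, Subgroup.mem_centralizer_iff]
      intro p hp
      rw [← hzP] at hp
      obtain ⟨j, rfl⟩ := Subgroup.mem_zpowers_iff.mp hp
      have hc : Commute s (y' : G) := hDcomm _ y'.2
      exact (hc.zpow_right j).symm.eq
    have hDcard : Nat.card ↥(C ⊓ Subgroup.centralizer {s}) = 1 ∨
        Nat.card ↥(C ⊓ Subgroup.centralizer {s}) = 5 := by
      have hpos : 0 < Nat.card ↥(C ⊓ Subgroup.centralizer {s}) := Nat.card_pos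
      have hle := Nat.le_of_dvd (by norm_num) hDdvd
      generalize Nat.card ↥(C ⊓ Subgroup.centralizer {s}) = n at hDdvd hD7 hpos hle ⊢
      interval_cases n <;> omega
    rcases hDcard with h1 | h1 <;> rw [h1] at hFs <;> omega
  · have hone : {Q : Sylow 7 G | s • Q = Q} = {P} := by
      ext Q
      constructor
      · intro hQ
        by_contra hne
        exact hex ⟨Q, hQ, hne⟩
      · intro hQ
        rw [Set.mem_singleton_iff] at hQ
        rw [hQ]; exact hPs
    rw [hone, Set.ncard_singleton] at hk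
    omega

end Cfsg.Agent.Lib.Helper27.A7
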